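import Mathlib

/-!
The abelian group `C` is `4³`: the module computation  (plans/RK3B.md, package OND)
-/

set_option autoImplicit false

namespace CfsgLib.Rk3B.OND

variable {M : Type*} [AddCommGroup M]

theorem ev {v : M} (h : v + v = 0) {i : ℤ} (hi : Even i) : i • v = 0 := by
  obtain ⟨k, rfl⟩ := hi
  rw [add_smul, ← smul_add, h, smul_zero]

/-- the data of the abelian group `C` with the action of `t, r, s, g` -/
structure Ab (T R S Γ : M →+ M) (z u e a : M) : Prop where
  zz : z + z = 0
  uu : u + u = 0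
  ee : e + e = 0
  ind : ∀ i j k : ℤ, i • z + j • u + k • e = 0 → Even i ∧ Even j ∧ Even k
  om : ∀ x : M, x + x = 0 → ∃ i j k : ℤ, x = i • z + j • u + k • e
  tz : T z = z
  tu : T u = u
  te : T e = z + e
  re : R e = u + e
  ru : R u = u
  gz : Γ z = u
  gu : Γ u = z + u
  ge : Γ e = e
  tt : ∀ x, T (T x) = x
  rr : ∀ x, R (R x) = x
  tr : ∀ x, R (T x) = T (R x)
  st : ∀ x, S (T x) = T (S x)
  sr : ∀ x, S (R x) = T (R (S x))
  gt : ∀ x, Γ (T x) = R (Γ x)
  gr : ∀ x, Γ (R x) = T (R (Γ x))
  ggg : ∀ x, Γ (Γ (Γ x)) = x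
  ga : T (Γ a) = a
  sa : S (T a) = -a
  ha : ∃ m : ℤ, m • a + m • a = e + u
  ys : ∀ y, T y = y → S y = y ∨ S y = z + y
  big : ∀ c : M, c + c + (c + c) ≠ 0 → ∃ η : M, η + η + (η + η) = e + u

namespace Ab

variable {T R S Γ : M →+ M} {z u e a : M} (h : Ab T R S Γ z u e a)
include h

theorem z0 : z ≠ 0 := fun e0 => by
  have := (h.ind 1 0 0 (by simp [e0])).1
  exact absurd this (by decide)

theorem fixγ {x : M} (xx : x + x = 0) (hx : T (Γ x) = x) : ∃ k : ℤ, x = k • (e + u) := by
  obtain ⟨i, j, k, rfl⟩ := h.om x xx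
  simp only [map_add, map_zsmul, h.gz, h.gu, h.ge, h.tz, h.tu, h.te] at hx
  obtain ⟨h1, h2, -⟩ := h.ind (j + k - i) i 0 (by linear_combination (norm := module) hx)
  refine ⟨k, ?_⟩
  have h3 : Even (j - k) := by
    obtain ⟨p, hp⟩ := h1
    obtain ⟨q, hq⟩ := h2
    exact ⟨p + q - k, by omega⟩
  linear_combination (norm := module) ev h.zz h2 + ev h.uu h3

theorem four (c : M) : c + c + (c + c) = 0 := by
  by_contra hc
  obtain ⟨η0, h0⟩ := h.big c hc
  obtain ⟨m, hm⟩ := h.ha
  have eu : e + u + (e + u) = 0 := by linear_combination (norm := module) h.ee + h.uu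
  have γeu : T (Γ (e + u)) = e + u := by
    simp only [map_add, h.gu, h.ge, h.tz, h.tu, h.te]
    linear_combination (norm := module) h.zz
  have γ3 : ∀ x, T (Γ (T (Γ (T (Γ x))))) = x := fun x => by
    rw [h.gt (Γ x), h.gt, h.gr, h.tr, h.tt, h.rr, h.ggg]
  obtain ⟨η, γη, h4⟩ : ∃ η : M, T (Γ η) = η ∧ η + η + (η + η) = e + u := by
    refine ⟨η0 + T (Γ η0) + T (Γ (T (Γ η0))), ?_, ?_⟩
    · simp only [map_add, γ3]
      abel
    · have h1 := congrArg (fun x => T (Γ x)) h0
      have h2 := congrArg (fun x => T (Γ x)) h1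
      simp only [γeu] at h1 h2
      simp only [map_add] at h1 h2
      linear_combination (norm := module) h0 + h1 + h2 + eu
  obtain ⟨k, hk⟩ := h.fixγ (x := η + η - m • a) (by linear_combination (norm := module) h4 - hm)
    (by simp only [map_sub, map_add, map_zsmul, γη, h.ga])
  have h5 : η + η = (m + 2 * k * m) • a := by linear_combination (norm := module) hk - k • hm
  have h6 : S (T (η + η)) = -(η + η) := by rw [h5, map_zsmul, map_zsmul, h.sa, smul_neg]
  have h7 : S (η + η) = -T (η + η) := by rw [← map_neg, ← h6, ← h.st, h.tt]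
  have h8 : S (η + T η + (η + T η)) = η + T η + (η + T η) := by
    rw [map_add]
    rcases h.ys (η + T η) (by rw [map_add, h.tt, add_comm]) with e1 | e1 <;> rw [e1]
    linear_combination (norm := module) h.zz
  have h9 := congrArg T h4
  simp only [map_add, h.te, h.tu] at h6 h7 h8 h9
  exact h.z0 (by linear_combination (norm := module) h6 + h7 - h8 - h4 - h9 - eu)

theorem exists_W : ∃ W : ZMod 4 → ZMod 4 → ZMod 4 → M,
    (∀ a b c a' b' c', W a b c + W a' b' c' = W (a + a') (b + b') (c + c')) ∧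
    (∀ a b c, W a b c = 0 → a = 0 ∧ b = 0 ∧ c = 0) ∧
    (∀ a b c, T (W a b c) = W (-a) (a + b) (-c)) ∧
    (∀ a b c, S (W a b c) = W (-a - 2 * c) (c - b) c) ∧
    (∀ a b c, R (W a b c) = W (-a) (-b) (a + c)) ∧
    W 0 2 0 = z ∧ W 0 0 2 = u ∧ W 2 0 0 = e ∧ W 3 0 1 = a ∧ ∀ x, ∃ a b c, W a b c = x := by
  have aa : a + a = e + u := by
    obtain ⟨m, hm⟩ := h.ha
    obtain ⟨k, rfl | rfl⟩ := Int.even_or_odd' m
    · have := (h.ind 0 1 1 (by linear_combination (norm := module) k • h.four a - hm)).2.1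
      exact absurd this (by decide)
    · linear_combination (norm := module) hm - k • h.four a
  obtain ⟨p, hp⟩ : ∃ p, p = R a := ⟨_, rfl⟩
  have pa : R p = a := by rw [hp, h.rr]
  have pp : p + p = e := by
    have := congrArg R aa
    simp only [map_add, h.re, h.ru, ← hp] at this
    linear_combination (norm := module) this + h.uu
  have gp : Γ p = p := by
    have : Γ a = T a := by rw [← h.tt (Γ a), h.ga]
    rw [hp, h.gr, this, h.tr, h.tt]
  have sp : S p = -p := by
    have : S a = -T a := by rw [← map_neg, ← h.sa, ← h.st, h.tt]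
    rw [hp, h.sr, this, map_neg, map_neg, h.tr, h.tt]
  have tp : T p + T p = z + e := by rw [← map_add, pp, h.te]
  have rp : R p + R p = u + e := by rw [← map_add, pp, h.re]
  have trp : T (R p) + T (R p) = u + (z + e) := by rw [← map_add, rp, map_add, h.tu, h.te]
  have N0 : p + T p + R p + T (R p) = 0 := by
    obtain ⟨i, j, k, hN⟩ := h.om (p + T p + R p + T (R p)) (by
      linear_combination (norm := module) pp + tp + rp + trp + h.zz + h.uu + (2 : ℤ) • h.ee)
    have h1 := congrArg T hN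
    have h2 := congrArg Γ hN
    simp only [map_add, map_zsmul, h.tt, h.tz, h.tu, h.te] at h1
    simp only [map_add, map_zsmul, h.gt, h.gr, gp, h.tr, h.rr, h.gz, h.gu, h.ge] at h2
    obtain ⟨k2, -, -⟩ := h.ind k 0 0 (by linear_combination (norm := module) hN - h1)
    obtain ⟨h3, h4, -⟩ := h.ind (j - i) i 0 (by linear_combination (norm := module) hN - h2)
    have h5 : Even j := by
      obtain ⟨p, hp⟩ := h3
      obtain ⟨q, hq⟩ := h4
      exact ⟨p + q, by omega⟩
    linear_combination (norm := module) hN + ev h.zz h4 + ev h.uu h5 + ev h.ee k2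
  obtain ⟨j0, h0⟩ : ∃ j0, j0 = p + T p := ⟨_, rfl⟩
  obtain ⟨j1, h1⟩ : ∃ j1, j1 = p + R p := ⟨_, rfl⟩
  have jj0 : j0 + j0 = z := by linear_combination (norm := module) (2 : ℤ) • h0 + pp + tp + h.ee
  have jj1 : j1 + j1 = u := by linear_combination (norm := module) (2 : ℤ) • h1 + pp + rp + h.ee
  have Tp : T p = j0 - p := by linear_combination (norm := module) -h0
  have Rp : R p = j1 - p := by linear_combination (norm := module) -h1
  have T0 : T j0 = j0 := by rw [h0, map_add, h.tt, add_comm]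
  have R1 : R j1 = j1 := by rw [h1, map_add, h.rr, add_comm]
  have T1 : T j1 = -j1 := by rw [h1, map_add]; linear_combination (norm := module) N0
  have R0 : R j0 = -j0 := by rw [h0, map_add, h.tr]; linear_combination (norm := module) N0
  have S0 : S j0 = -j0 := by rw [h0, map_add, h.st, sp, map_neg]; abel
  have S1 : S j1 = j0 + j1 - (p + p) := by
    rw [h0, h1, map_add, h.sr, sp, map_neg, map_neg]
    linear_combination (norm := module) -N0
  letI : Module (ZMod 4) M := AddCommGroup.zmodModule (n := 4) fun x => by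
    linear_combination (norm := module) h.four x
  have cs : ∀ (i : ℤ) (x : M), (i : ZMod 4) • x = i • x := fun i x => Int.cast_smul_eq_zsmul _ i x
  have sj : ∀ a : ZMod 4, ∃ i : ℤ, (i : ZMod 4) = a := ZMod.intCast_surjective
  refine ⟨fun a b c => a • p + b • j0 + c • j1, fun a b c a' b' c' => by module, ?_, ?_, ?_, ?_, ?_, ?_, ?_,
    ?_, ?_⟩
  · intro a b c hw
    obtain ⟨a, rfl⟩ := sj a
    obtain ⟨b, rfl⟩ := sj b
    obtain ⟨c, rfl⟩ := sj c
    simp only [cs] at hw
    obtain ⟨⟨b, rfl⟩, ⟨c, rfl⟩, ⟨a, rfl⟩⟩ := h.ind b c a (by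
      linear_combination (norm := module) (2 : ℤ) • hw - a • pp - b • jj0 - c • jj1)
    obtain ⟨⟨b, rfl⟩, ⟨c, rfl⟩, ⟨a, rfl⟩⟩ := h.ind b c a (by
      linear_combination (norm := module) hw - a • pp - b • jj0 - c • jj1)
    have : ∀ x : ZMod 4, x + x + (x + x) = 0 := by decide
    exact ⟨by push_cast; exact this _, by push_cast; exact this _, by push_cast; exact this _⟩
  · intro a b c
    simp only [map_add, ZMod.map_smul, Tp, T0, T1]
    module
  · intro a b c
    simp only [map_add, ZMod.map_smul, sp, S0, S1]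
    module
  · intro a b c
    simp only [map_add, ZMod.map_smul, Rp, R0, R1]
    module
  · rw [← jj0]; module
  · rw [← jj1]; module
  · rw [← pp]; module
  · rw [← pa, Rp]
    have : (3 : ZMod 4) = -1 := by decide
    rw [this]
    module
  · intro x
    obtain ⟨i, j, k, hx⟩ := h.om (x + x) (h.four x)
    obtain ⟨i', j', k', hy⟩ := h.om (x - (k • p + i • j0 + j • j1)) (by
      linear_combination (norm := module) hx - k • pp - i • jj0 - j • jj1)
    refine ⟨(k + 2 * k' : ℤ), (i + 2 * i' : ℤ), (j + 2 * j' : ℤ), ?_⟩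
    simp only [cs]
    linear_combination (norm := module) -hy + k' • pp + i' • jj0 + j' • jj1

end Ab

end CfsgLib.Rk3B.OND
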